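import Mathlib
import Cfsg.Agent.Lib.Helper15.RankParity
import Cfsg.Agent.Lib.Helper15.CartanD
import Cfsg.Agent.Lib.Helper15.OrthOrder

/-!
# The orthogonal group of an anisotropic plane has order `2 (q + 1)`

`card_aniso2`: for an anisotropic quadratic form with non-degenerate polar form on a
two-dimensional space over a field with `q` elements, `|O(Q)| = 2 (q + 1)`.  The group is
transitive on the vectors of each norm (a single reflection), the stabiliser of a non-zero
vector has order two (`stab_two`, via `RankParity.fix_step`), and the form is universal.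
`card_minus_zero` is the case of the standard minus-type form of rank `0`.
-/

set_option autoImplicit false

namespace Cfsg.Agent.Lib.Helper15.Aniso2

open Module Cfsg.Agent.Lib.Helper15.Spinor Cfsg.Agent.Lib.Helper15.CD2
  Cfsg.Agent.Lib.Helper15.Parity Cfsg.Agent.Lib.Helper15.Witt
  Cfsg.Agent.Lib.Helper15.RankParity Cfsg.Agent.Lib.Helper15.StdForms

/-- Orbit-stabiliser counting for a surjection whose fibres are cosets of `S`. -/
theorem card_eq_of_fibers {G X : Type*} [Group G] (f : G → X) (hsurj : Function.Surjective f)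
    (S : Set G) (hS : ∀ g h, f g = f h ↔ g⁻¹ * h ∈ S) :
    Nat.card G = Nat.card X * Nat.card ↥S := by
  choose γ hγ using hsurj
  let E : G ≃ X × ↥S :=
    { toFun := fun g => (f g, ⟨(γ (f g))⁻¹ * g, (hS _ _).1 (hγ (f g))⟩)
      invFun := fun p => γ p.1 * p.2.1
      left_inv := fun g => by simp
      right_inv := by
        rintro ⟨x, ⟨s, hs⟩⟩
        have hx : f (γ x * s) = x := by
          have h := (hS (γ x) (γ x * s)).2 (by rw [inv_mul_cancel_left]; exact hs)
          rw [← h, hγ]
        apply Prod.ext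
        · exact hx
        · apply Subtype.ext
          change (γ (f (γ x * s)))⁻¹ * (γ x * s) = s
          rw [hx, inv_mul_cancel_left] }
  rw [Nat.card_congr E, Nat.card_prod]

variable {F : Type*} [Field F] {ι : Type} [Fintype ι] [DecidableEq ι]

/-- The reflection in `u - v` carries `u` to `v` when `Q u = Q v`. -/
theorem refl_move (Q : QuadraticForm F (ι → F)) (u v : ι → F) (huv : Q u = Q v)
    (hne : Q (u - v) ≠ 0) : act Q (reflO Q (u - v)) u = v := by
  rw [act_reflO Q _ hne]
  have h1 : QuadraticMap.polar ⇑Q (u - v) u = Q (u - v) := by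
    rw [QuadraticMap.polar_sub_left, QuadraticMap.polar_self, sub_eq_add_neg u v,
      QuadraticMap.map_add ⇑Q, QuadraticMap.map_neg, QuadraticMap.polar_neg_right, ← huv,
      QuadraticMap.polar_comm ⇑Q v u]
    simp only [nsmul_eq_mul, Nat.cast_ofNat]
    ring
  rw [h1, inv_mul_cancel₀ hne, one_smul]
  abel

/-- In an anisotropic plane the stabiliser of a non-zero vector has order two. -/
theorem stab_two (Q : QuadraticForm F (ι → F))
    (hQ : (QuadraticMap.polarBilin Q).Nondegenerate) (hcard : Fintype.card ι = 2)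
    (hani : ∀ x, Q x = 0 → x = 0) (u : ι → F) (hu : u ≠ 0) :
    Nat.card ↥({g : ↥(Cfsg.isometryGroup F ⇑Q) | act Q g u = u} : Set _) = 2 := by
  classical
  have hnd : ∀ x, (∀ y, QuadraticMap.polar ⇑Q x y = 0) → x = 0 := fun x hx => hQ.1 x hx
  have hperp : finrank F ↥(perp Q (Submodule.span F {u})) = 1 := by
    rw [finrank_perp Q hQ, hcard, finrank_span_singleton hu]
  have hne : perp Q (Submodule.span F {u}) ≠ ⊥ := by
    intro h
    rw [h, finrank_bot] at hperp
    omega
  obtain ⟨w, hwp, hw0⟩ := Submodule.exists_mem_ne_zero_of_ne_bot hne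
  have hwu : QuadraticMap.polar ⇑Q w u = 0 :=
    (mem_perp Q _ w).1 hwp u (Submodule.subset_span rfl)
  have hQw : Q w ≠ 0 := fun h => hw0 (hani w h)
  have hru : act Q (reflO Q w) u = u := act_reflO_fix Q w u hwu
  have hr1 : reflO Q w ≠ 1 := by
    intro h
    obtain ⟨x, hx⟩ : ∃ x, QuadraticMap.polar ⇑Q w x ≠ 0 := by
      by_contra hno
      exact hw0 (hnd w (fun y => by
        by_contra hy
        exact hno ⟨y, hy⟩))
    have h1 := act_reflO Q w hQw x
    rw [h, act_one] at h1
    have h2 : ((Q w)⁻¹ * QuadraticMap.polar ⇑Q w x) • w = 0 := sub_eq_self.1 h1.symm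
    rcases smul_eq_zero.1 h2 with h3 | h3
    · exact (mul_ne_zero (inv_ne_zero hQw) hx) h3
    · exact hw0 h3
  have hfix1 : ∀ h : ↥(Cfsg.isometryGroup F ⇑Q), act Q h u = u →
      1 ≤ finrank F ↥(fixSp Q h) := by
    intro h hh
    by_contra hlt
    have h0 : finrank F ↥(fixSp Q h) = 0 := by omega
    rw [Submodule.finrank_eq_zero] at h0
    have hmem : u ∈ fixSp Q h := (mem_fixSp Q h u).2 hh
    rw [h0, Submodule.mem_bot] at hmem
    exact hu hmem
  have htop : ∀ h : ↥(Cfsg.isometryGroup F ⇑Q), finrank F ↥(fixSp Q h) = 2 → h = 1 := by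
    intro h hh
    have ht : fixSp Q h = ⊤ := Submodule.eq_top_of_finrank_eq (by
      rw [hh, Module.finrank_fintype_fun_eq_card, hcard])
    apply act_ext Q
    intro x
    rw [act_one]
    exact (mem_fixSp Q h x).1 (by rw [ht]; exact Submodule.mem_top)
  have hall : ∀ g : ↥(Cfsg.isometryGroup F ⇑Q), act Q g u = u → g = 1 ∨ g = reflO Q w := by
    intro g hg
    have h1 := hfix1 g hg
    have h2 := hfix1 (reflO Q w * g) (by rw [act_mul, hg, hru])
    have h3 := finrank_le_card (fixSp Q g)
    have h4 := finrank_le_card (fixSp Q (reflO Q w * g))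
    rw [hcard] at h3 h4
    rcases fix_step Q hQ g w hQw with h | h
    · right
      have h5 := htop (reflO Q w * g) (by omega)
      calc g = reflO Q w * (reflO Q w * g) := by rw [← mul_assoc, reflO_mul_self, one_mul]
        _ = reflO Q w := by rw [h5, mul_one]
    · left
      exact htop g (by omega)
  rw [Nat.card_eq_two_iff]
  refine ⟨⟨1, by change act Q 1 u = u; rw [act_one]⟩, ⟨reflO Q w, hru⟩, ?_, ?_⟩
  · intro h
    exact hr1 (congrArg Subtype.val h).symm
  · apply Set.eq_univ_of_forall
    rintro ⟨g, hg⟩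
    rcases hall g hg with h | h
    · exact Or.inl (Subtype.ext h)
    · exact Or.inr (Subtype.ext h)

/-- The orthogonal group of an anisotropic plane over the field with `q` elements has order
`2 (q + 1)`. -/
theorem card_aniso2 [Fintype F] (Q : QuadraticForm F (ι → F))
    (hQ : (QuadraticMap.polarBilin Q).Nondegenerate) (hcard : Fintype.card ι = 2)
    (hani : ∀ x, Q x = 0 → x = 0) :
    Nat.card ↥(Cfsg.isometryGroup F ⇑Q) = 2 * (Fintype.card F + 1) := by
  classical
  have huniv : ∀ c : F, ∃ x, Q x = c := by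
    intro c
    by_cases h2 : (2 : F) = 0
    · have hchar : CharP F 2 := CharTwo.of_one_ne_zero_of_two_eq_zero one_ne_zero h2
      have hι : Nonempty ι := by
        rw [← Fintype.card_pos_iff, hcard]
        omega
      obtain ⟨i⟩ := hι
      obtain ⟨x₀, hx₀⟩ : ∃ x₀ : ι → F, x₀ ≠ 0 :=
        ⟨fun _ => 1, fun h => one_ne_zero (congrFun h i)⟩
      have hc₀ : Q x₀ ≠ 0 := fun h => hx₀ (hani x₀ h)
      obtain ⟨d, hd⟩ := FiniteField.isSquare_of_char_two (CharP.ringChar_of_prime_eq_zero
        Nat.prime_two h2) (c / Q x₀)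
      refine ⟨d • x₀, ?_⟩
      rw [QuadraticMap.map_smul, ← hd, smul_eq_mul, div_mul_cancel₀ c hc₀]
    · exact Cfsg.Agent.Lib.Helper15.CartanD.universal h2 Q hQ (by rw [hcard]) c
  have hL : ∀ c : F, c ≠ 0 →
      Nat.card ↥(Cfsg.isometryGroup F ⇑Q) = Nat.card {v : ι → F // Q v = c} * 2 := by
    intro c hc
    obtain ⟨u, hu⟩ := huniv c
    have hu0 : u ≠ 0 := by
      rintro rfl
      rw [map_zero] at hu
      exact hc hu.symm
    rw [← stab_two Q hQ hcard hani u hu0]
    apply card_eq_of_fibers (fun g : ↥(Cfsg.isometryGroup F ⇑Q) =>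
      (⟨act Q g u, (act_Q Q g u).trans hu⟩ : {v : ι → F // Q v = c}))
    · rintro ⟨v, hv⟩
      by_cases huv : u = v
      · exact ⟨1, Subtype.ext (by change act Q 1 u = v; rw [act_one]; exact huv)⟩
      · have hne : Q (u - v) ≠ 0 := fun h => huv (sub_eq_zero.1 (hani _ h))
        exact ⟨reflO Q (u - v), Subtype.ext (refl_move Q u v (hu.trans hv.symm) hne)⟩
    · intro g h
      constructor
      · intro e
        have e' : act Q g u = act Q h u := congrArg Subtype.val e
        change act Q (g⁻¹ * h) u = u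
        rw [act_mul, ← e', act_inv_act]
      · intro e
        change act Q (g⁻¹ * h) u = u at e
        rw [act_mul] at e
        have e2 := congrArg (act Q g) e
        rw [act_act_inv] at e2
        exact Subtype.ext e2.symm
  have htot : Nat.card (ι → F) = ∑ c : F, Nat.card {v : ι → F // Q v = c} := by
    rw [← Nat.card_sigma]
    exact Nat.card_congr (Equiv.sigmaFiberEquiv (fun v : ι → F => Q v)).symm
  have h0 : Nat.card {v : ι → F // Q v = 0} = 1 := by
    rw [Nat.card_eq_one_iff_unique]
    exact ⟨⟨fun a b => Subtype.ext ((hani _ a.2).trans (hani _ b.2).symm)⟩,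
      ⟨⟨0, map_zero Q⟩⟩⟩
  have hV : Nat.card (ι → F) = Fintype.card F ^ 2 := by
    rw [Nat.card_eq_fintype_card, Fintype.card_fun, hcard]
  have hsum : 2 * Fintype.card F ^ 2
      = 2 + (Fintype.card F - 1) * Nat.card ↥(Cfsg.isometryGroup F ⇑Q) := by
    rw [← hV, htot, ← Finset.add_sum_erase Finset.univ _ (Finset.mem_univ (0 : F)), h0, mul_add,
      Finset.mul_sum]
    congr 1
    rw [Finset.sum_congr rfl (fun c hc => by
      rw [mul_comm, ← hL c (Finset.ne_of_mem_erase hc)]), Finset.sum_const,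
      Finset.card_erase_of_mem (Finset.mem_univ _), Finset.card_univ, smul_eq_mul]
  have hq : 2 ≤ Fintype.card F := Fintype.one_lt_card
  obtain ⟨r, hr⟩ : ∃ r, Fintype.card F = r + 2 := ⟨_, (Nat.sub_add_cancel hq).symm⟩
  rw [hr] at hsum ⊢
  have h1 : r + 2 - 1 = r + 1 := by omega
  rw [h1] at hsum
  have h3 : (r + 1) * Nat.card ↥(Cfsg.isometryGroup F ⇑Q) = (r + 1) * (2 * (r + 2 + 1)) := by
    nlinarith [hsum]
  exact Nat.eq_of_mul_eq_mul_left (by omega) h3

/-- `|O⁻_2(q)| = 2 (q + 1)`. -/
theorem card_minus_zero [Fintype F] (a b : F)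
    (hab : ∀ z₁ z₂ : F, z₁ ^ 2 + a * z₁ * z₂ + b * z₂ ^ 2 = 0 → z₁ = 0 ∧ z₂ = 0) :
    Nat.card ↥(Cfsg.isometryGroup F (Cfsg.quadFormMinus 0 F a b)) = 2 * (Fintype.card F + 1) := by
  have h := card_aniso2 (minusQF 0 F a b) (minus_nondeg 0 a b hab) (by
    rw [Fintype.card_sum, Fintype.card_sum, Fintype.card_fin, Fintype.card_fin]) (by
    intro x hx
    rw [minusQF_apply] at hx
    unfold Cfsg.quadFormMinus at hx
    rw [Finset.univ_eq_empty, Finset.sum_empty, zero_add] at hx
    obtain ⟨h0, h1⟩ := hab _ _ hx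
    funext j
    rcases j with (j | j) | j
    · exact j.elim0
    · exact j.elim0
    · fin_cases j
      · exact h0
      · exact h1)
  rw [coe_minusQF] at h
  exact h

end Cfsg.Agent.Lib.Helper15.Aniso2
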