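import Mathlib
import Cfsg.Agent.Lib.Helper15.OrthOrder

/-!
# Base case of the order recursion in odd dimension: `|O_1(q)| = 2`
-/

set_option autoImplicit false

namespace Cfsg.Agent.Lib.Helper15.OrthOrder0

open Module Cfsg.Agent.Lib.Helper15.Spinor Cfsg.Agent.Lib.Helper15.CD2
  Cfsg.Agent.Lib.Helper15.OrthGen Cfsg.Agent.Lib.Helper15.Spinor3

variable {F : Type*} [Field F]

theorem idx_eq (i : Unit ⊕ (Fin 0 ⊕ Fin 0)) : i = Sum.inl () := by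
  rcases i with ⟨⟩ | i | i
  · rfl
  · exact i.elim0
  · exact i.elim0

theorem mat_one_or_neg (g : ↥(Cfsg.isometryGroup F ⇑(oddQF 0 F))) :
    ((g : Matrix.GeneralLinearGroup (Unit ⊕ (Fin 0 ⊕ Fin 0)) F) :
        Matrix (Unit ⊕ (Fin 0 ⊕ Fin 0)) (Unit ⊕ (Fin 0 ⊕ Fin 0)) F) = 1 ∨
      ((g : Matrix.GeneralLinearGroup (Unit ⊕ (Fin 0 ⊕ Fin 0)) F) :
        Matrix (Unit ⊕ (Fin 0 ⊕ Fin 0)) (Unit ⊕ (Fin 0 ⊕ Fin 0)) F) = -1 := by
  classical
  have hg := iso_apply (oddQF 0 F) g (fun _ => 1)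
  have e := congrFun (coe_oddQF (F := F) 0)
  rw [e, e] at hg
  unfold Cfsg.quadFormOdd at hg
  simp only [Matrix.mulVec, dotProduct, Fintype.sum_sum_type, Finset.univ_unique,
    Finset.sum_singleton, Finset.univ_eq_empty, Finset.sum_empty, add_zero, mul_one,
    one_pow] at hg
  have hc : ((g : Matrix.GeneralLinearGroup (Unit ⊕ (Fin 0 ⊕ Fin 0)) F) :
        Matrix (Unit ⊕ (Fin 0 ⊕ Fin 0)) (Unit ⊕ (Fin 0 ⊕ Fin 0)) F) (Sum.inl ()) (Sum.inl ()) = 1 ∨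
      ((g : Matrix.GeneralLinearGroup (Unit ⊕ (Fin 0 ⊕ Fin 0)) F) :
        Matrix (Unit ⊕ (Fin 0 ⊕ Fin 0)) (Unit ⊕ (Fin 0 ⊕ Fin 0)) F) (Sum.inl ()) (Sum.inl ()) = -1 :=
    by
      have h0 : (((g : Matrix.GeneralLinearGroup (Unit ⊕ (Fin 0 ⊕ Fin 0)) F) :
          Matrix (Unit ⊕ (Fin 0 ⊕ Fin 0)) (Unit ⊕ (Fin 0 ⊕ Fin 0)) F) (Sum.inl ()) (Sum.inl ()) - 1)
          * (((g : Matrix.GeneralLinearGroup (Unit ⊕ (Fin 0 ⊕ Fin 0)) F) :
          Matrix (Unit ⊕ (Fin 0 ⊕ Fin 0)) (Unit ⊕ (Fin 0 ⊕ Fin 0)) F) (Sum.inl ()) (Sum.inl ()) + 1)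
          = 0 := by
        linear_combination hg
      rcases mul_eq_zero.1 h0 with h | h
      · left
        exact sub_eq_zero.1 h
      · right
        exact eq_neg_of_add_eq_zero_left h
  rcases hc with h | h
  · left
    ext i j
    rw [idx_eq i, idx_eq j, h]
    simp
  · right
    ext i j
    rw [idx_eq i, idx_eq j, h]
    simp

theorem card_oddQF_zero (h2 : (2 : F) ≠ 0) :
    Nat.card ↥(Cfsg.isometryGroup F ⇑(oddQF 0 F)) = 2 := by
  classical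
  obtain ⟨gm, hgm⟩ := exists_iso (oddQF 0 F) (-1) (-1) (by simp) (by simp)
    (fun x => by rw [Matrix.neg_mulVec, Matrix.one_mulVec, QuadraticMap.map_neg])
  rw [Nat.card_eq_two_iff]
  refine ⟨1, gm, ?_, ?_⟩
  · intro h
    have h1 := congrArg (fun x : ↥(Cfsg.isometryGroup F ⇑(oddQF 0 F)) =>
      ((x : Matrix.GeneralLinearGroup (Unit ⊕ (Fin 0 ⊕ Fin 0)) F) :
        Matrix (Unit ⊕ (Fin 0 ⊕ Fin 0)) (Unit ⊕ (Fin 0 ⊕ Fin 0)) F) (Sum.inl ()) (Sum.inl ())) h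
    simp only [hgm] at h1
    rw [coe_one] at h1
    simp only [Matrix.one_apply_eq, Matrix.neg_apply] at h1
    apply h2
    linear_combination h1
  · apply Set.eq_univ_of_forall
    intro g
    rcases mat_one_or_neg g with h | h
    · left
      exact Subtype.ext (Units.ext h)
    · right
      exact Subtype.ext (Units.ext (h.trans hgm.symm))

theorem card_odd_zero (h2 : (2 : F) ≠ 0) :
    Nat.card ↥(Cfsg.isometryGroup F (Cfsg.quadFormOdd 0 F)) = 2 := by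
  have h := card_oddQF_zero (F := F) h2
  rw [coe_oddQF] at h
  exact h

end Cfsg.Agent.Lib.Helper15.OrthOrder0
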