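import Mathlib
import Cfsg.Agent.Lib.Helper15.RankParity

/-!
# Involutions of orthogonal groups in characteristic two: conjugacy under `Ω`

* `conj_in_omega`: if `t` fixes a non-singular vector, `O`-conjugacy of `t` implies
  `Ω`-conjugacy (the reflection in the fixed vector centralises `t` and lies outside `Ω`).
* `fix_ts`: an involution whose fixed space is totally singular has `Im (t - 1) = Fix t` of
  half the dimension.
* `minus_ts_le`: the totally singular subspaces of the minus-type form have dimension at most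
  `k` (dimension of the space: `2k + 2`).
* `conj_max_ts`: when `Im (t - 1)` is a maximal totally singular subspace, a conjugating element
  lies in `Ω` iff `Im (t - 1) ∩ Im (s - 1)` has even codimension in `Im (t - 1)`.
-/

set_option autoImplicit false

namespace Cfsg.Agent.Lib.Helper15.InvSplit

open Module Cfsg.Agent.Lib.Helper15.Spinor Cfsg.Agent.Lib.Helper15.CD2
  Cfsg.Agent.Lib.Helper15.Parity Cfsg.Agent.Lib.Helper15.Witt Cfsg.Agent.Lib.Helper15.WittInf
  Cfsg.Agent.Lib.Helper15.RankParity Cfsg.Agent.Lib.Helper15.StdForms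

variable {F : Type*} [Field F] {ι : Type} [Fintype ι] [DecidableEq ι]

theorem mulVecLin_sub_one (Q : QuadraticForm F (ι → F)) (g : ↥(Cfsg.isometryGroup F ⇑Q)) :
    Matrix.mulVecLin (((g : Matrix.GeneralLinearGroup ι F) : Matrix ι ι F) - 1)
      = act Q g - LinearMap.id := by
  apply LinearMap.ext
  intro x
  rw [Matrix.mulVecLin_apply, Matrix.sub_mulVec, Matrix.one_mulVec, LinearMap.sub_apply,
    LinearMap.id_apply, act_apply]

/-- If `t` fixes a non-singular vector then conjugacy of `t` under the orthogonal group can be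
realised inside its commutator subgroup. -/
theorem conj_in_omega [Fintype F] [CharP F 2] (Q : QuadraticForm F (ι → F))
    (hnd : ∀ x, (∀ y, QuadraticMap.polar ⇑Q x y = 0) → x = 0)
    (hc : Fintype.card F ≠ 2 ∨ Fintype.card ι ≠ 4) (t s g : ↥(Cfsg.isometryGroup F ⇑Q))
    (hg : g * t * g⁻¹ = s) (w : ι → F) (hw : Q w ≠ 0) (htw : act Q t w = w) :
    ∃ g' ∈ commutator ↥(Cfsg.isometryGroup F ⇑Q), g' * t * g'⁻¹ = s := by
  by_cases hgO : g ∈ commutator ↥(Cfsg.isometryGroup F ⇑Q)
  · exact ⟨g, hgO, hg⟩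
  · obtain ⟨vs, hvs, hgvs⟩ := Cfsg.Agent.Lib.Helper15.OrthGen.cd_all Q hnd hc g
    have hodd : ¬ Even vs.length := by
      intro he
      apply hgO
      rw [hgvs]
      exact (Cfsg.Agent.Lib.Helper15.Dickson.prodRefl_mem_commutator_iff Q hnd hc vs hvs).2 he
    have hcomm : t * reflO Q w * t⁻¹ = reflO Q w := by
      rw [conj_reflO Q t w hw, ← act_apply, htw]
    refine ⟨g * reflO Q w, ?_, ?_⟩
    · have e : g * reflO Q w = prodRefl Q (vs ++ [w]) := by
        rw [prodRefl_append_inf, hgvs, prodRefl_cons_inf, prodRefl_nil_inf, mul_one]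
      rw [e]
      apply (Cfsg.Agent.Lib.Helper15.Dickson.prodRefl_mem_commutator_iff Q hnd hc _ _).2
      · rw [List.length_append, List.length_singleton]
        exact Nat.even_add_one.2 hodd
      · intro v hv
        rw [List.mem_append, List.mem_singleton] at hv
        rcases hv with hv | rfl
        · exact hvs v hv
        · exact hw
    · have h2 : t * reflO Q w = reflO Q w * t := by
        calc t * reflO Q w = t * reflO Q w * t⁻¹ * t := by group
          _ = reflO Q w * t := by rw [hcomm]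
      have h1 : reflO Q w * t * (reflO Q w)⁻¹ = t := by
        rw [← h2]
        group
      rw [← hg]
      calc g * reflO Q w * t * (g * reflO Q w)⁻¹
          = g * (reflO Q w * t * (reflO Q w)⁻¹) * g⁻¹ := by group
        _ = g * t * g⁻¹ := by rw [h1]

/-- In characteristic two, the image of `t - 1` consists of the vectors `v + t v`. -/
theorem sub_eq_add_two [CharP F 2] (x y : ι → F) : x - y = y + x := by
  funext i
  rw [Pi.sub_apply, Pi.add_apply]
  have h := CharTwo.add_self_eq_zero (y i)
  linear_combination (-1 : F) * h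

/-- An involution whose fixed space is totally singular: the image of `t - 1` is the fixed
space, of half the dimension. -/
theorem fix_ts [CharP F 2] (Q : QuadraticForm F (ι → F))
    (hQ : (QuadraticMap.polarBilin Q).Nondegenerate) (t : ↥(Cfsg.isometryGroup F ⇑Q))
    (ht : ∀ x, act Q t (act Q t x) = x) (hts : ∀ w ∈ fixSp Q t, Q w = 0) :
    LinearMap.range (act Q t - LinearMap.id) = fixSp Q t ∧
      2 * finrank F ↥(fixSp Q t) = Fintype.card ι := by
  have hnd : ∀ x, (∀ y, QuadraticMap.polar ⇑Q x y = 0) → x = 0 := fun x hx => hQ.1 x hx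
  have hle : LinearMap.range (act Q t - LinearMap.id) ≤ fixSp Q t := by
    rintro _ ⟨x, rfl⟩
    rw [mem_fixSp, LinearMap.sub_apply, LinearMap.id_apply, map_sub, ht]
    have e1 := sub_eq_add_two x (act Q t x)
    have e2 := sub_eq_add_two (act Q t x) x
    rw [e1, e2, add_comm]
  have hperp := perp_range Q hnd t
  have hle2 : fixSp Q t ≤ LinearMap.range (act Q t - LinearMap.id) := by
    have h1 : fixSp Q t ≤ perp Q (fixSp Q t) := fun x hx => by
      rw [mem_perp]
      intro s hs
      exact polar_of_sing Q _ hts x s hx hs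
    have h2 : perp Q (fixSp Q t) = LinearMap.range (act Q t - LinearMap.id) := by
      rw [← hperp, perp_perp Q hQ]
    rw [h2] at h1
    exact h1
  have heq := le_antisymm hle hle2
  refine ⟨heq, ?_⟩
  have h := finrank_perp Q hQ (LinearMap.range (act Q t - LinearMap.id))
  rw [hperp] at h
  rw [heq] at h
  have h3 := finrank_le_card (fixSp Q t)
  omega

/-! ### The minus-type form -/

/-- The standard totally singular subspace of dimension `k` of the minus-type form. -/
def minusE (k : ℕ) (F : Type*) [Field F] : Submodule F ((Fin k ⊕ Fin k) ⊕ Fin 2 → F) :=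
  LinearMap.ker (LinearMap.funLeft F F
    (Sum.elim (fun i : Fin k => Sum.inl (Sum.inr i)) Sum.inr :
      Fin k ⊕ Fin 2 → (Fin k ⊕ Fin k) ⊕ Fin 2))

theorem mem_minusE (k : ℕ) (v : (Fin k ⊕ Fin k) ⊕ Fin 2 → F) :
    v ∈ minusE k F ↔ (∀ i, v (Sum.inl (Sum.inr i)) = 0) ∧ ∀ j, v (Sum.inr j) = 0 := by
  unfold minusE
  rw [LinearMap.mem_ker]
  constructor
  · intro h
    exact ⟨fun i => congrFun h (Sum.inl i), fun j => congrFun h (Sum.inr j)⟩
  · rintro ⟨h1, h2⟩
    funext j
    rcases j with i | j
    · exact h1 i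
    · exact h2 j

theorem finrank_minusE (k : ℕ) : finrank F ↥(minusE k F) = k := by
  have h := LinearMap.finrank_range_add_finrank_ker (LinearMap.funLeft F F
    (Sum.elim (fun i : Fin k => Sum.inl (Sum.inr i)) Sum.inr :
      Fin k ⊕ Fin 2 → (Fin k ⊕ Fin k) ⊕ Fin 2))
  have hr : LinearMap.range (LinearMap.funLeft F F
      (Sum.elim (fun i : Fin k => Sum.inl (Sum.inr i)) Sum.inr :
        Fin k ⊕ Fin 2 → (Fin k ⊕ Fin k) ⊕ Fin 2)) = ⊤ := by
    rw [LinearMap.range_eq_top]
    intro y
    refine ⟨Sum.elim (Sum.elim 0 (fun i => y (Sum.inl i))) (fun j => y (Sum.inr j)), ?_⟩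
    funext j
    rcases j with i | j <;> rfl
  rw [hr, finrank_top, Module.finrank_fintype_fun_eq_card, Module.finrank_fintype_fun_eq_card]
    at h
  simp only [Fintype.card_sum, Fintype.card_fin] at h
  unfold minusE
  omega

/-- The totally singular subspaces of the minus-type form in dimension `2k + 2` have dimension
at most `k`. -/
theorem minus_ts_le [Finite F] (k : ℕ) (a b : F)
    (hab : ∀ z₁ z₂ : F, z₁ ^ 2 + a * z₁ * z₂ + b * z₂ ^ 2 = 0 → z₁ = 0 ∧ z₂ = 0)
    (U : Submodule F ((Fin k ⊕ Fin k) ⊕ Fin 2 → F))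
    (hU : ∀ x ∈ U, minusQF k F a b x = 0) : finrank F ↥U ≤ k := by
  classical
  by_contra hlt
  have hk : k ≤ finrank F ↥U := by omega
  obtain ⟨f, hf⟩ := exists_linearIndependent_of_le_finrank hk
  obtain ⟨U', hU'def⟩ : ∃ U', U' = (Submodule.span F (Set.range f)).map U.subtype := ⟨_, rfl⟩
  have hU'le : U' ≤ U := by
    rw [hU'def]
    exact Submodule.map_subtype_le U _
  have hU'rank : finrank F ↥U' = k := by
    rw [hU'def, Submodule.finrank_map_subtype_eq, finrank_span_eq_card hf, Fintype.card_fin]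
  have hQ := minus_nondeg k a b hab
  have hnd : ∀ x, (∀ y, QuadraticMap.polar ⇑(minusQF k F a b) x y = 0) → x = 0 :=
    fun x hx => hQ.1 x hx
  have hE0 : ∀ x ∈ minusE k F, minusQF k F a b x = 0 := by
    intro x hx
    rw [mem_minusE] at hx
    rw [minusQF_apply]
    unfold Cfsg.quadFormMinus
    rw [hx.2 0, hx.2 1, Finset.sum_eq_zero (fun i _ => by rw [hx.1 i, mul_zero])]
    ring
  obtain ⟨vs, -, -, hmap⟩ := ts_trans_inf (minusQF k F a b) hnd k ⊥ U' (minusE k F)
    (splits_bot _) (fun x _ => mem_perp_bot _ x) (fun x _ => mem_perp_bot _ x)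
    (fun x hx => hU x (hU'le hx)) hE0 hU'rank (finrank_minusE k)
  obtain ⟨g, hgdef⟩ : ∃ g, g = prodRefl (minusQF k F a b) vs := ⟨_, rfl⟩
  rw [← hgdef] at hmap
  have hU''0 : ∀ x ∈ U.map (act (minusQF k F a b) g), minusQF k F a b x = 0 := by
    rintro _ ⟨u, hu, rfl⟩
    rw [act_Q]
    exact hU u hu
  have hEle : minusE k F ≤ U.map (act (minusQF k F a b) g) := by
    rw [← hmap]
    exact Submodule.map_mono hU'le
  have hnle : ¬ (U.map (act (minusQF k F a b) g) ≤ minusE k F) := by
    intro hle
    have h1 := Submodule.finrank_mono hle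
    rw [finrank_map_act, finrank_minusE] at h1
    omega
  obtain ⟨x, hx, hxE⟩ := SetLike.not_le_iff_exists.1 hnle
  apply hxE
  rw [mem_minusE]
  have h1 : ∀ i, x (Sum.inl (Sum.inr i)) = 0 := by
    intro i
    have he : (Pi.single (Sum.inl (Sum.inl i)) (1 : F) : (Fin k ⊕ Fin k) ⊕ Fin 2 → F)
        ∈ minusE k F := by
      rw [mem_minusE]
      constructor <;> intro j <;> simp
    have hp := polar_of_sing _ _ hU''0 _ x (hEle he) hx
    rw [coe_minusQF, polar_minus] at hp
    simpa [Pi.single_apply] using hp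
  have h0 := hU''0 x hx
  rw [minusQF_apply] at h0
  unfold Cfsg.quadFormMinus at h0
  rw [Finset.sum_eq_zero (fun i _ => by rw [h1 i, mul_zero]), zero_add] at h0
  obtain ⟨hz0, hz1⟩ := hab _ _ h0
  refine ⟨h1, ?_⟩
  intro j
  fin_cases j
  · exact hz0
  · exact hz1

/-! ### Involutions with maximal totally singular image -/

/-- Conjugation carries the image of `t - 1` to the image of `s - 1`. -/
theorem range_conj (Q : QuadraticForm F (ι → F)) (t s h : ↥(Cfsg.isometryGroup F ⇑Q))
    (hh : h * t * h⁻¹ = s) :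
    LinearMap.range (act Q s - LinearMap.id)
      = (LinearMap.range (act Q t - LinearMap.id)).map (act Q h) := by
  have hs : ∀ z, act Q s (act Q h z) = act Q h (act Q t z) := by
    intro z
    rw [← hh, ← act_mul, ← act_mul]
    congr 2
    group
  ext y
  constructor
  · rintro ⟨x, rfl⟩
    refine ⟨act Q t (act Q h⁻¹ x) - act Q h⁻¹ x, ⟨act Q h⁻¹ x, rfl⟩, ?_⟩
    rw [map_sub, ← hs, act_act_inv, LinearMap.sub_apply, LinearMap.id_apply]
  · rintro ⟨_, ⟨z, rfl⟩, rfl⟩
    refine ⟨act Q h z, ?_⟩
    rw [LinearMap.sub_apply, LinearMap.id_apply, LinearMap.sub_apply, LinearMap.id_apply, map_sub,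
      hs]

/-- When the image of `t - 1` is a maximal totally singular subspace, an element conjugating
`t` to `s` lies in the commutator subgroup exactly when the images of `t - 1` and `s - 1` meet
in even codimension. -/
theorem conj_max_ts [Fintype F] [CharP F 2] (Q : QuadraticForm F (ι → F))
    (hQ : (QuadraticMap.polarBilin Q).Nondegenerate)
    (hc : Fintype.card F ≠ 2 ∨ Fintype.card ι ≠ 4) (m : ℕ) (hcard : Fintype.card ι = 2 * m)
    (t s h : ↥(Cfsg.isometryGroup F ⇑Q)) (hh : h * t * h⁻¹ = s)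
    (hR0 : ∀ x ∈ LinearMap.range (act Q t - LinearMap.id), Q x = 0)
    (hRm : finrank F ↥(LinearMap.range (act Q t - LinearMap.id)) = m) :
    h ∈ commutator ↥(Cfsg.isometryGroup F ⇑Q) ↔
      Even (m - finrank F ↥(LinearMap.range (act Q t - LinearMap.id)
        ⊓ LinearMap.range (act Q s - LinearMap.id))) := by
  have hnd : ∀ x, (∀ y, QuadraticMap.polar ⇑Q x y = 0) → x = 0 := fun x hx => hQ.1 x hx
  have hSO := selfOrth_of_finrank Q hQ _ hR0 m hRm hcard
  obtain ⟨vs, hvs, hgvs⟩ := Cfsg.Agent.Lib.Helper15.OrthGen.cd_all Q hnd hc h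
  rw [range_conj Q t s h hh, hgvs,
    Cfsg.Agent.Lib.Helper15.Dickson.prodRefl_mem_commutator_iff Q hnd hc vs hvs,
    parity_gen_inf Q hQ _ hSO m hRm vs hvs]

end Cfsg.Agent.Lib.Helper15.InvSplit
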